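import Cfsg.Agent.Lib.CriticalSpectrum.Split
import Cfsg.Agent.Lib.SL2.FpfThreeModule
import Cfsg.Agent.Lib.ClassicalLinear.ProjLine
import Mathlib.FieldTheory.Finite.GaloisField

/-!
The affine group of the plane over the field with four elements.
-/

set_option autoImplicit false
set_option linter.unusedSectionVars false

open Subgroup Cfsg Matrix
open scoped MatrixGroups

namespace CfsgLib.CriticalSpectrum

universe u

/-- Matrices with last row `(0, 0, 1)`. -/
def affineSub (F : Type) [Field F] : Subgroup (SpecialLinearGroup (Fin 3) F) where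
  carrier := {M | (M : Matrix (Fin 3) (Fin 3) F) 2 0 = 0 ∧ (M : Matrix (Fin 3) (Fin 3) F) 2 1 = 0 ∧
    (M : Matrix (Fin 3) (Fin 3) F) 2 2 = 1}
  one_mem' := by simp
  mul_mem' := by
    rintro a b ⟨a0, a1, a2⟩ ⟨b0, b1, b2⟩
    simp [Matrix.mul_apply, Fin.sum_univ_three, a0, a1, a2, b0, b1, b2]
  inv_mem' := by
    rintro a ⟨a0, a1, a2⟩
    have e : ∀ j, ((a : Matrix (Fin 3) (Fin 3) F) * (a⁻¹ : SpecialLinearGroup (Fin 3) F)) 2 j =
        (1 : Matrix (Fin 3) (Fin 3) F) 2 j := by
      intro j
      exact congrArg (fun X : SpecialLinearGroup (Fin 3) F => (X : Matrix (Fin 3) (Fin 3) F) 2 j) (mul_inv_cancel a)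
    have h0 := e 0
    have h1 := e 1
    have h2 := e 2
    simp only [Matrix.mul_apply, Fin.sum_univ_three, a0, a1, a2, zero_mul, zero_add, one_mul] at h0 h1 h2
    exact ⟨h0.trans (by simp), h1.trans (by simp), h2.trans (by simp)⟩

variable {F : Type} [Field F] [Fintype F]

/-- The linear part. -/
def lin (M : affineSub F) : SL(2, F) :=
  ⟨!![(M.1 : Matrix (Fin 3) (Fin 3) F) 0 0, (M.1 : Matrix (Fin 3) (Fin 3) F) 0 1;
      (M.1 : Matrix (Fin 3) (Fin 3) F) 1 0, (M.1 : Matrix (Fin 3) (Fin 3) F) 1 1], by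
    have h := M.1.2
    obtain ⟨h0, h1, h2⟩ := M.2
    rw [Matrix.det_fin_three, h0, h1, h2] at h
    rw [Matrix.det_fin_two_of]
    linear_combination h⟩

/-- The translation part. -/
def trans (M : affineSub F) : Fin 2 → F :=
  ![(M.1 : Matrix (Fin 3) (Fin 3) F) 0 2, (M.1 : Matrix (Fin 3) (Fin 3) F) 1 2]

theorem lin_mul (M M' : affineSub F) : lin (M * M') = lin M * lin M' := by
  obtain ⟨b0, b1, b2⟩ := M'.2
  ext i j
  show (lin (M * M') : Matrix (Fin 2) (Fin 2) F) i j =
    ((lin M : Matrix (Fin 2) (Fin 2) F) * (lin M' : Matrix (Fin 2) (Fin 2) F)) i j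
  fin_cases i <;> fin_cases j <;>
    simp [lin, Matrix.mul_apply, Fin.sum_univ_three, Fin.sum_univ_two, b0, b1]

theorem trans_mul (M M' : affineSub F) :
    trans (M * M') = trans M + (lin M : Matrix (Fin 2) (Fin 2) F).mulVec (trans M') := by
  obtain ⟨b0, b1, b2⟩ := M'.2
  funext i
  fin_cases i <;>
    simp [trans, lin, Matrix.mul_apply, Matrix.mulVec, dotProduct, Fin.sum_univ_three, Fin.sum_univ_two, b2] <;>
    ring

theorem affine_ext {M M' : affineSub F} (hl : lin M = lin M') (ht : trans M = trans M') : M = M' := by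
  obtain ⟨a0, a1, a2⟩ := M.2
  obtain ⟨b0, b1, b2⟩ := M'.2
  have e : ∀ i j, (lin M : Matrix (Fin 2) (Fin 2) F) i j = (lin M' : Matrix (Fin 2) (Fin 2) F) i j := by
    intro i j; rw [hl]
  have e00 := e 0 0
  have e01 := e 0 1
  have e10 := e 1 0
  have e11 := e 1 1
  have f0 := congrFun ht 0
  have f1 := congrFun ht 1
  simp [lin, trans] at e00 e01 e10 e11 f0 f1
  refine Subtype.ext (Subtype.ext (Matrix.ext fun i j => ?_))
  fin_cases i <;> fin_cases j <;> simp [*]

/-- The matrix with given parts. -/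
def mkAffine (A : SL(2, F)) (v : Fin 2 → F) : affineSub F :=
  ⟨⟨!![A.1 0 0, A.1 0 1, v 0; A.1 1 0, A.1 1 1, v 1; 0, 0, 1], by
    rw [Matrix.det_fin_three]
    have h := A.2
    rw [Matrix.det_fin_two] at h
    simp
    linear_combination h⟩, by
    refine ⟨?_, ?_, ?_⟩ <;> simp⟩

theorem lin_mkAffine (A : SL(2, F)) (v : Fin 2 → F) : lin (mkAffine A v) = A := by
  ext i j
  fin_cases i <;> fin_cases j <;> simp [lin, mkAffine]

theorem trans_mkAffine (A : SL(2, F)) (v : Fin 2 → F) : trans (mkAffine A v) = v := by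
  funext i
  fin_cases i <;> simp [trans, mkAffine]

/-- A minimal normal elementary abelian `2`-subgroup with quotient `A5` and orders at most five. -/
theorem equiv_affine {G : Type u} [Group G] [Finite G] (h : SmallSpectrum.Spec G) (N : Subgroup G) [N.Normal]
    (hsq : ∀ x ∈ N, x ^ 2 = 1) (e : G ⧸ N ≃* ↥(alternatingGroup (Fin 5))) (hne : N ≠ ⊥)
    (hmin : ∀ M : Subgroup G, M.Normal → M ≤ N → M = ⊥ ∨ M = N) :
    ∃ (F : Type) (_ : Field F) (_ : Fintype F), Fintype.card F = 4 ∧ Nonempty (G ≃* affineSub F) := by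
  classical
  have := Fintype.ofFinite (GaloisField 2 2)
  set F := GaloisField 2 2
  have hF : Fintype.card F = 4 := by
    rw [← Nat.card_eq_fintype_card, GaloisField.card 2 2 (by norm_num)]; rfl
  refine ⟨F, inferInstance, inferInstance, hF, ?_⟩
  obtain ⟨C, hC⟩ := exists_complement h N hsq e
  -- `SL(2, 4)` is `A5`
  have hc1 : Nat.card (center SL(2, F)) = 1 := by
    rw [ClassicalLinear.card_center_SL, Fintype.card_fin, hF]; rfl
  let π : SL(2, F) ≃* ProjectiveSpecialLinearGroup (Fin 2) F :=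
    MulEquiv.ofBijective (QuotientGroup.mk' (center SL(2, F)))
      ⟨by rw [← MonoidHom.ker_eq_bot_iff, QuotientGroup.ker_mk']; exact card_eq_one.1 hc1,
        QuotientGroup.mk'_surjective _⟩
  obtain ⟨φ, hφ⟩ := ClassicalLinear.exists_pslTwo_hom (F := F) (m := 5) (by rw [hF])
  obtain ⟨e5⟩ := ClassicalLinear.equiv_alternatingGroup_of_injective (by norm_num) φ hφ (by
    rw [ClassicalLinear.card_PSL_two_card_four hF]; rfl)
  let eC : C →* G ⧸ N := (QuotientGroup.mk' N).comp C.subtype
  have heC : Function.Bijective eC := by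
    refine ⟨?_, fun z => ?_⟩
    · rw [← MonoidHom.ker_eq_bot_iff, eq_bot_iff]
      intro c hc
      have h1 : (c : G) ∈ N := (QuotientGroup.eq_one_iff _).1 hc
      have : (c : G) ∈ C ⊓ N := ⟨c.2, h1⟩
      rw [hC.disjoint.eq_bot, mem_bot] at this
      exact mem_bot.2 (Subtype.ext this)
    · obtain ⟨g, rfl⟩ := QuotientGroup.mk_surjective z
      obtain ⟨⟨c, n⟩, hcn⟩ := hC.2 g
      refine ⟨c, ?_⟩
      have hcn' : (c : G) * n = g := hcn
      show ((c : G) : G ⧸ N) = g
      rw [← hcn', QuotientGroup.mk_mul, (QuotientGroup.eq_one_iff _).2 n.2, mul_one]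
  let ψ0 : SL(2, F) ≃* C := (π.trans (e5.trans e.symm)).trans (MulEquiv.ofBijective eC heC).symm
  let ψ : SL(2, F) →* G := C.subtype.comp ψ0.toMonoidHom
  have hψinj : Function.Injective ψ := C.subtype_injective.comp ψ0.injective
  -- the module
  letI : CommGroup N := { (inferInstance : Group N) with
    mul_comm := fun a b => Subtype.ext (SmallSpectrum.commute_of_sq_eq_one hsq a.2 b.2) }
  let conjN : SL(2, F) → N →* N := fun A =>
    { toFun := fun v => ⟨ψ A * v * (ψ A)⁻¹, (inferInstance : N.Normal).conj_mem _ v.2 _⟩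
      map_one' := Subtype.ext (by simp)
      map_mul' := fun a b => Subtype.ext (show ψ A * ((a : G) * b) * (ψ A)⁻¹ =
        ψ A * a * (ψ A)⁻¹ * (ψ A * b * (ψ A)⁻¹) by group) }
  let ρ : SL(2, F) →* AddMonoid.End (Additive N) :=
    { toFun := fun A => MonoidHom.toAdditive (conjN A)
      map_one' := AddMonoidHom.ext fun v =>
        (Subtype.ext (show ψ 1 * (Additive.toMul v : N) * (ψ 1)⁻¹ = ((Additive.toMul v : N) : G) by simp) :
          conjN 1 (Additive.toMul v) = Additive.toMul v)
      map_mul' := fun A B => AddMonoidHom.ext fun v =>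
        (Subtype.ext (show ψ (A * B) * (Additive.toMul v : N) * (ψ (A * B))⁻¹ =
          ψ A * (ψ B * (Additive.toMul v : N) * (ψ B)⁻¹) * (ψ A)⁻¹ by rw [map_mul]; group) :
          conjN (A * B) (Additive.toMul v) = conjN A (conjN B (Additive.toMul v))) }
  have h2 : (2 : F) = 0 := by
    have : CharP F 2 := inferInstance
    exact CharTwo.two_eq_zero
  have hadd : ∀ v : Additive N, v + v = 0 := fun v =>
    (Subtype.ext (mul_self N hsq (Additive.toMul v).2) : Additive.toMul v * Additive.toMul v = 1)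
  have hrep : SL2.FpfThree.Rep ρ :=
    { two := h2
      two' := by
        rw [← one_add_one_eq_two]
        exact AddMonoidHom.ext fun v => hadd v
      four_le := by rw [hF]
      rel := fun y hy => AddMonoidHom.ext fun v => by
        have hy3 : y * y * y = 1 := SL2.FpfThree.cube_of_tr_one h2 hy
        have hy1 : y ≠ 1 := by
          intro e1
          rw [e1, SL2.tr] at hy
          simp [h2] at hy
        have hY : orderOf (ψ y) = 3 := by
          have : Fact (Nat.Prime 3) := ⟨Nat.prime_three⟩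
          rw [orderOf_injective ψ hψinj]
          exact orderOf_eq_prime (by rw [← hy3]; simp [pow_succ]) hy1
        set w : Additive N := ρ y (ρ y v) + ρ y v + v with hw
        show w = 0
        have hfix : ρ y w = w := by
          rw [hw, map_add, map_add]
          have e3 : ρ y (ρ y (ρ y v)) = v := by
            show (ρ y * ρ y * ρ y) v = v
            rw [← map_mul, ← map_mul, hy3, map_one]
            rfl
          rw [e3]
          abel
        have hc : Commute (ψ y) ((Additive.toMul w : N) : G) :=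
          mul_inv_eq_iff_eq_mul.1 (congrArg (fun z : Additive N => ((Additive.toMul z : N) : G)) hfix)
        exact (Subtype.ext (fpf_of_three h N hsq hY (Additive.toMul w).2 hc) : Additive.toMul w = 1) }
  obtain ⟨k, E, hE, hEq⟩ := hrep.exists_coords
  -- one coordinate already fills the minimal normal subgroup
  have hk : 0 < k := by
    rcases Nat.eq_zero_or_pos k with rfl | hk
    · exfalso
      obtain ⟨v, hv, hv1⟩ := (N.bot_or_exists_ne_one).resolve_left hne
      obtain ⟨x, hx⟩ := hE.2 (Additive.ofMul ⟨v, hv⟩)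
      rw [Subsingleton.elim x 0, map_zero] at hx
      exact hv1 (congrArg Subtype.val (congrArg Additive.toMul hx)).symm
    · exact hk
  let j : Fin k := ⟨0, hk⟩
  let ι : (Fin 2 → F) →+ Additive N := E.comp (AddMonoidHom.single (fun _ : Fin k => Fin 2 → F) j)
  have hι : ∀ (A : SL(2, F)) (w : Fin 2 → F), ρ A (ι w) = ι ((A : Matrix (Fin 2) (Fin 2) F).mulVec w) := by
    intro A w
    show ρ A (E (Pi.single j w)) = E (Pi.single j _)
    rw [hEq]
    congr 1
    funext i
    rcases eq_or_ne i j with rfl | hij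
    · rw [Pi.single_eq_same, Pi.single_eq_same]
    · rw [Pi.single_eq_of_ne hij, Pi.single_eq_of_ne hij, Matrix.mulVec_zero]
  have hιinj : Function.Injective ι := hE.1.comp (Pi.single_injective (M := fun _ : Fin k => Fin 2 → F) j)
  let n : (Fin 2 → F) → G := fun w => ((Additive.toMul (ι w) : N) : G)
  have hn0 : n 0 = 1 := by simp [n]
  have hnadd : ∀ w w', n (w + w') = n w * n w' := fun w w' => by simp [n]
  have hnmem : ∀ w, n w ∈ N := fun w => (Additive.toMul (ι w)).2
  have hnconj : ∀ (A : SL(2, F)) w, ψ A * n w * (ψ A)⁻¹ = n ((A : Matrix (Fin 2) (Fin 2) F).mulVec w) := by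
    intro A w
    have := congrArg (fun z : Additive N => ((Additive.toMul z : N) : G)) (hι A w)
    exact this
  have hdecomp : ∀ g : G, ∃ (A : SL(2, F)), ∃ v ∈ N, g = v * ψ A := by
    intro g
    obtain ⟨⟨c, v⟩, hcv⟩ := hC.2 g
    obtain ⟨A, hA⟩ := ψ0.surjective c
    refine ⟨A, c * v * (c : G)⁻¹, (inferInstance : N.Normal).conj_mem _ v.2 _, ?_⟩
    show g = _ * ((ψ0 A : C) : G)
    rw [hA, inv_mul_cancel_right]
    exact hcv.symm
  let M : Subgroup G :=
    { carrier := Set.range n
      one_mem' := ⟨0, hn0⟩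
      mul_mem' := by rintro _ _ ⟨a, rfl⟩ ⟨b, rfl⟩; exact ⟨a + b, hnadd a b⟩
      inv_mem' := by
        rintro _ ⟨a, rfl⟩
        exact ⟨a, (inv_eq_of_mul_eq_one_right (mul_self N hsq (hnmem a))).symm⟩ }
  have hMN : M ≤ N := by rintro _ ⟨a, rfl⟩; exact hnmem a
  have hMn : M.Normal := ⟨by
    rintro _ ⟨a, rfl⟩ g
    obtain ⟨A, v, hv, rfl⟩ := hdecomp g
    refine ⟨(A : Matrix (Fin 2) (Fin 2) F).mulVec a, ?_⟩
    rw [← hnconj, show v * ψ A * n a * (v * ψ A)⁻¹ = v * (ψ A * n a * (ψ A)⁻¹) * v⁻¹ by group,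
      SmallSpectrum.commute_of_sq_eq_one hsq hv ((inferInstance : N.Normal).conj_mem _ (hnmem a) _),
      mul_inv_cancel_right]⟩
  have hMtop : M = N := by
    refine (hmin M hMn hMN).resolve_left fun e0 => ?_
    have h1 : n (Pi.single 0 1) ∈ M := ⟨_, rfl⟩
    rw [e0, mem_bot] at h1
    have h3 : ι (Pi.single (0 : Fin 2) (1 : F)) = ι 0 := by
      rw [map_zero]
      exact congrArg Additive.ofMul (Subtype.ext h1 : Additive.toMul (ι (Pi.single (0 : Fin 2) (1 : F))) = 1)
    simpa using congrFun (hιinj h3) 0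
  let Φ : affineSub F →* G :=
    { toFun := fun B => n (trans B) * ψ (lin B)
      map_one' := by
        have h1 : trans (1 : affineSub F) = 0 := by funext i; fin_cases i <;> simp [trans]
        have h3 : lin (1 : affineSub F) = 1 := by
          ext i l
          fin_cases i <;> fin_cases l <;> simp [lin]
        rw [h1, h3, hn0, map_one, one_mul]
      map_mul' := fun B B' => by
        rw [lin_mul, trans_mul, hnadd, map_mul, ← hnconj]
        group }
  refine ⟨(MulEquiv.ofBijective Φ ⟨?_, fun g => ?_⟩).symm⟩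
  · rw [← MonoidHom.ker_eq_bot_iff, eq_bot_iff]
    intro B hB
    have e1 : n (trans B) * ψ (lin B) = 1 := hB
    have hmem : ψ (lin B) ∈ C ⊓ N := ⟨(ψ0 (lin B)).2, by
      rw [eq_inv_of_mul_eq_one_right e1]; exact N.inv_mem (hnmem _)⟩
    rw [hC.disjoint.eq_bot, mem_bot] at hmem
    rw [hmem, mul_one] at e1
    have hl : lin B = 1 := hψinj (by rw [hmem, map_one])
    have ht : trans B = 0 := hιinj (by
      rw [map_zero]; exact congrArg Additive.ofMul (Subtype.ext e1 : Additive.toMul (ι (trans B)) = 1))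
    refine mem_bot.2 (affine_ext ?_ ?_)
    · rw [hl]
      ext i l
      fin_cases i <;> fin_cases l <;> simp [lin]
    · rw [ht]; funext i; fin_cases i <;> simp [trans]
  · obtain ⟨A, v, hv, rfl⟩ := hdecomp g
    obtain ⟨w, hw⟩ : v ∈ M := hMtop.symm ▸ hv
    exact ⟨mkAffine A w, by
      show n (trans (mkAffine A w)) * ψ (lin (mkAffine A w)) = _
      rw [lin_mkAffine, trans_mkAffine, hw]⟩

end CfsgLib.CriticalSpectrum
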