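import Cfsg.Agent.Lib.SmallSpectrum.Main
import Cfsg.Agent.Lib.NormalComplements.Gaschutz

/-!
An elementary abelian `2`-group extended by `A5`, all element orders at most five: minimality and splitting.
-/

set_option autoImplicit false
set_option linter.unusedSectionVars false

open Subgroup Cfsg

namespace CfsgLib.CriticalSpectrum

universe u

variable {G : Type u} [Group G] [Finite G] (h : SmallSpectrum.Spec G) (N : Subgroup G) [N.Normal]
  (hsq : ∀ x ∈ N, x ^ 2 = 1) (e : G ⧸ N ≃* ↥(alternatingGroup (Fin 5)))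
include h hsq e

omit h e in
theorem isPGroup_two : IsPGroup 2 N := fun x => ⟨1, Subtype.ext (by rw [pow_one]; exact hsq x x.2)⟩

omit h e in
theorem mul_self {x : G} (hx : x ∈ N) : x * x = 1 := by rw [← pow_two]; exact hsq x hx

omit hsq in
theorem exists_alt_elements :
    ∃ a y r : G, orderOf (a : G ⧸ N) = 2 ∧ orderOf (y : G ⧸ N) = 3 ∧ orderOf (r : G ⧸ N) = 3 ∧
      ((a : G ⧸ N) * y) ^ 3 = 1 ∧ a * r * a⁻¹ * r ∈ N := by
  have key : ∃ a y r : ↥(alternatingGroup (Fin 5)), a ≠ 1 ∧ a ^ 2 = 1 ∧ y ≠ 1 ∧ y ^ 3 = 1 ∧ r ≠ 1 ∧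
      r ^ 3 = 1 ∧ (a * y) ^ 3 = 1 ∧ a * r * a⁻¹ * r = 1 := by
    refine ⟨⟨Equiv.swap 0 1 * Equiv.swap 2 3, ?_⟩, ⟨Equiv.swap 0 1 * Equiv.swap 1 2, ?_⟩,
      ⟨Equiv.swap 0 1 * Equiv.swap 1 4, ?_⟩, ?_⟩
    · rw [Equiv.Perm.mem_alternatingGroup]; decide
    · rw [Equiv.Perm.mem_alternatingGroup]; decide
    · rw [Equiv.Perm.mem_alternatingGroup]; decide
    · decide +kernel
  obtain ⟨a, y, r, ha, ha2, hy, hy3, hr, hr3, hay, har⟩ := key
  obtain ⟨a', ha'⟩ := QuotientGroup.mk_surjective (e.symm a)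
  obtain ⟨y', hy'⟩ := QuotientGroup.mk_surjective (e.symm y)
  obtain ⟨r', hr'⟩ := QuotientGroup.mk_surjective (e.symm r)
  have : Fact (Nat.Prime 2) := ⟨Nat.prime_two⟩
  have : Fact (Nat.Prime 3) := ⟨Nat.prime_three⟩
  refine ⟨a', y', r', ?_, ?_, ?_, ?_, ?_⟩
  · rw [ha', MulEquiv.orderOf_eq]; exact orderOf_eq_prime ha2 ha
  · rw [hy', MulEquiv.orderOf_eq]; exact orderOf_eq_prime hy3 hy
  · rw [hr', MulEquiv.orderOf_eq]; exact orderOf_eq_prime hr3 hr
  · rw [ha', hy', ← map_mul, ← map_pow, hay, map_one]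
  · rw [← QuotientGroup.eq_one_iff]
    simp only [QuotientGroup.mk_mul, QuotientGroup.mk_inv, ha', hr', ← map_inv, ← map_mul, har, map_one]

omit hsq e in
theorem orderOf_eq_three {g : G} (hg : orderOf (g : G ⧸ N) = 3) : orderOf g = 3 := by
  have hd : 3 ∣ orderOf g := hg ▸ orderOf_map_dvd (QuotientGroup.mk' N) g
  have := h g
  have := orderOf_pos g
  omega

omit e in
theorem fpf_of_three {g x : G} (hg : orderOf g = 3) (hx : x ∈ N) (hc : Commute g x) : x = 1 :=
  have : Fact (Nat.Prime 2) := ⟨Nat.prime_two⟩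
  h.eq_one_of_pGroup (isPGroup_two N hsq) hx hc (by omega)
    fun e => by rw [e, orderOf_one] at hg; omega

/-- An involution outside `N` inverting an element of order three. -/
theorem exists_involution {a r : G} (ha : orderOf (a : G ⧸ N) = 2) (hr : orderOf (r : G ⧸ N) = 3)
    (har : a * r * a⁻¹ * r ∈ N) : ∃ t : G, t * t = 1 ∧ t * r * t⁻¹ = r⁻¹ ∧ (t : G ⧸ N) = a := by
  obtain ⟨t, ht, htr, hta⟩ := h.exists_inverting (isPGroup_two N hsq) (Or.inl rfl) (orderOf_eq_three h N hr) har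
  refine ⟨t, ht, htr, ?_⟩
  have := (QuotientGroup.eq_one_iff _).2 hta
  rwa [QuotientGroup.mk_mul, QuotientGroup.mk_inv, mul_inv_eq_one] at this

/-- The quotient by a smaller normal subgroup inside `N` still has an element of order four. -/
theorem exists_order_four (M : Subgroup G) [M.Normal] (hM : M ≤ N) (hMN : M ≠ N) :
    ∃ g : G, orderOf (g : G ⧸ M) = 4 := by
  classical
  obtain ⟨a, y, r, ha, -, hr, -, har⟩ := exists_alt_elements h N e
  obtain ⟨t, ht, htr, hta⟩ := exists_involution h N hsq e ha hr har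
  have hr3 := orderOf_eq_three h N hr
  have hrr : ∀ v : G, v ∈ N → ∀ w ∈ N, r * v * r⁻¹ * v⁻¹ = r * w * r⁻¹ * w⁻¹ → v = w := by
    intro v hv w hw he
    have hc : Commute r (w⁻¹ * v) := by
      have hcom : ∀ x ∈ N, ∀ z ∈ N, x * z = z * x := fun x hx z hz => by
        calc x * z = (x * z)⁻¹ := (inv_eq_of_mul_eq_one_right (mul_self N hsq (N.mul_mem hx hz))).symm
          _ = z⁻¹ * x⁻¹ := mul_inv_rev x z
          _ = z * x := by
            rw [inv_eq_of_mul_eq_one_right (mul_self N hsq hx), inv_eq_of_mul_eq_one_right (mul_self N hsq hz)]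
      refine mul_inv_eq_iff_eq_mul.1 ?_
      calc r * (w⁻¹ * v) * r⁻¹ = (r * w * r⁻¹)⁻¹ * (r * v * r⁻¹) := by group
        _ = (r * w * r⁻¹ * w⁻¹ * w)⁻¹ * (r * v * r⁻¹ * v⁻¹ * v) := by group
        _ = w⁻¹ * v := by rw [he]; group
    exact (inv_mul_eq_one.1 (fpf_of_three h N hsq hr3 (N.mul_mem (N.inv_mem hw) hv) hc)).symm
  obtain ⟨v, hv, hvt⟩ : ∃ v ∈ N, v * (t * v * t⁻¹) ∉ M := by
    by_contra hne
    push Not at hne
    have hall : ∀ v ∈ N, r * v * r⁻¹ * v⁻¹ ∈ M := by
      intro v hv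
      have hfix : ∀ x ∈ N, ((t * x * t⁻¹ : G) : G ⧸ M) = x := fun x hx => by
        have := (QuotientGroup.eq_one_iff _).2 (hne x hx)
        rw [QuotientGroup.mk_mul, ← inv_eq_iff_mul_eq_one] at this
        rw [← this, ← QuotientGroup.mk_inv, inv_eq_of_mul_eq_one_right (mul_self N hsq hx)]
      -- `r` is a commutator of `t` with itself
      have hrt : r = t * r * t⁻¹ * r⁻¹ := by
        rw [htr]
        calc r = r⁻¹ * r⁻¹ * (r * r * r) := by group
          _ = r⁻¹ * r⁻¹ := by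
            rw [show r * r * r = r ^ 3 by simp [pow_succ], ← hr3, pow_orderOf_eq_one, mul_one]
      set q := QuotientGroup.mk' M with hq
      have hct : ∀ x ∈ N, Commute (q t) (q x) := fun x hx => by
        refine mul_inv_eq_iff_eq_mul.1 ?_
        rw [← map_inv, ← map_mul, ← map_mul]
        exact hfix x hx
      have hcr : Commute (q r) (q v) := by
        have h1 := hct _ ((inferInstance : N.Normal).conj_mem v hv r⁻¹)
        have h2 : Commute (q (r * t⁻¹ * r⁻¹)) (q v) := by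
          have h3 := (h1.inv_left.map (MulAut.conj (q r)).toMonoidHom)
          simp only [MulEquiv.coe_toMonoidHom, MulAut.conj_apply] at h3
          rw [← map_inv, ← map_inv, ← map_mul, ← map_mul, ← map_mul, ← map_mul] at h3
          convert h3 using 2
          group
        have h4 := (hct v hv).mul_left h2
        rw [← map_mul] at h4
        rw [show r = t * (r * t⁻¹ * r⁻¹) by rw [← mul_assoc, ← mul_assoc]; exact hrt]
        exact h4
      rw [← QuotientGroup.eq_one_iff]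
      simp only [QuotientGroup.mk_mul, QuotientGroup.mk_inv]
      exact mul_inv_eq_one.2 (mul_inv_eq_iff_eq_mul.2 hcr.eq)
    let f : N → M := fun v => ⟨_, hall v v.2⟩
    have hf : Function.Injective f := fun a b hab =>
      Subtype.ext (hrr a a.2 b b.2 (congrArg Subtype.val hab))
    exact hMN (eq_of_le_of_card_ge hM (Nat.card_le_card_of_injective f hf))
  refine ⟨v * t, ?_⟩
  have hti : t⁻¹ = t := inv_eq_of_mul_eq_one_right ht
  have hsq2 : (v * t) ^ 2 = v * (t * v * t⁻¹) := by rw [pow_two, hti]; group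
  have : Fact (Nat.Prime 2) := ⟨Nat.prime_two⟩
  refine orderOf_eq_prime_pow (p := 2) (n := 1) ?_ ?_
  · rw [pow_one, ← QuotientGroup.mk_pow, QuotientGroup.eq_one_iff, hsq2]; exact hvt
  · show ((v * t : G) : G ⧸ M) ^ (2 ^ 2) = 1
    rw [← QuotientGroup.mk_pow, QuotientGroup.eq_one_iff, show (2 : ℕ) ^ 2 = 2 * 2 by rfl, pow_mul, hsq2,
      hsq _ (N.mul_mem hv ((inferInstance : N.Normal).conj_mem v hv t))]
    exact one_mem M

/-- `N` has a complement. -/
theorem exists_complement : ∃ M : Subgroup G, M.IsComplement' N := by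
  classical
  obtain ⟨a, y, r, ha, hy, hr, hay, har⟩ := exists_alt_elements h N e
  obtain ⟨g, hg, -, hga⟩ := exists_involution h N hsq e ha hr har
  have hy3 := orderOf_eq_three h N hy
  have hy3' : y * y * y = 1 := by
    rw [show y * y * y = y ^ 3 by simp [pow_succ], ← hy3, pow_orderOf_eq_one]
  have hgy : (g * y) * (g * y) * (g * y) = 1 := by
    have hd : ((g * y : G) : G ⧸ N) ^ 3 = 1 := by rw [QuotientGroup.mk_mul, hga]; exact hay
    have : orderOf (g * y) = 3 := orderOf_eq_three h N (by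
      have : Fact (Nat.Prime 3) := ⟨Nat.prime_three⟩
      refine orderOf_eq_prime hd fun e1 => ?_
      rw [QuotientGroup.mk_mul, hga] at e1
      rw [eq_inv_of_mul_eq_one_left e1, orderOf_inv, hy] at ha
      omega)
    rw [show (g * y) * (g * y) * (g * y) = (g * y) ^ 3 by simp [pow_succ, mul_assoc], ← this, pow_orderOf_eq_one]
  set g₂ := y * g * y⁻¹ with hg2def
  set g₃ := y * g₂ * y⁻¹ with hg3def
  have hyi : y⁻¹ = y * y := inv_eq_of_mul_eq_one_right (by rw [← mul_assoc]; exact hy3')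
  have h22 : g₂ * g₂ = 1 := by
    rw [hg2def, show y * g * y⁻¹ * (y * g * y⁻¹) = y * (g * g) * y⁻¹ by group, hg]; group
  have h33 : g₃ * g₃ = 1 := by
    rw [hg3def, show y * g₂ * y⁻¹ * (y * g₂ * y⁻¹) = y * (g₂ * g₂) * y⁻¹ by group, h22]; group
  have hprod : g * g₂ * g₃ = 1 := by
    rw [hg3def, hg2def, ← hgy, show g * (y * g * y⁻¹) * (y * (y * g * y⁻¹) * y⁻¹) =
      g * y * g * y * g * (y⁻¹ * y⁻¹) by group, hyi, show y * y * (y * y) = y * y * y * y by group, hy3', one_mul]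
    simp only [mul_assoc]
  have hg12 : g * g₂ = g₂ * g := by
    calc g * g₂ = g₃⁻¹ := eq_inv_of_mul_eq_one_left hprod
      _ = g₃ := inv_eq_of_mul_eq_one_right h33
      _ = (g * g₂)⁻¹ := eq_inv_of_mul_eq_one_right hprod
      _ = g₂ * g := by rw [mul_inv_rev, inv_eq_of_mul_eq_one_right hg, inv_eq_of_mul_eq_one_right h22]
  have k1 : g * (g * g₂) = g₂ := by rw [← mul_assoc, hg, one_mul]
  have k2 : g₂ * (g * g₂) = g := by rw [hg12, ← mul_assoc, h22, one_mul]
  have k3 : g * g₂ * g = g₂ := by rw [mul_assoc, ← hg12, k1]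
  have k4 : g * g₂ * g₂ = g := by rw [mul_assoc, h22, mul_one]
  have k5 : g * g₂ * (g * g₂) = 1 := by rw [← mul_assoc, k3, h22]
  set K : Subgroup G := closure {g, g₂} with hK
  set q := QuotientGroup.mk' N with hq
  have hmemK : ∀ x ∈ K, x = 1 ∨ x = g ∨ x = g₂ ∨ x = g * g₂ := by
    intro x hx
    induction hx using closure_induction with
    | mem x hx =>
      rcases hx with rfl | rfl
      · exact Or.inr (Or.inl rfl)
      · exact Or.inr (Or.inr (Or.inl rfl))
    | one => exact Or.inl rfl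
    | mul a b _ _ ha hb =>
      rcases ha with rfl | rfl | rfl | rfl <;> rcases hb with rfl | rfl | rfl | rfl <;>
        simp [hg, h22, k1, k2, k3, k4, k5, ← hg12]
    | inv a _ ha =>
      rcases ha with rfl | rfl | rfl | rfl
      · simp
      · simp [inv_eq_of_mul_eq_one_right hg]
      · simp [inv_eq_of_mul_eq_one_right h22]
      · simp [inv_eq_of_mul_eq_one_right hg, inv_eq_of_mul_eq_one_right h22, hg12]
  have hd1 : q g ≠ 1 := fun e1 => by
    change (g : G ⧸ N) = 1 at e1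
    rw [← hga, e1, orderOf_one] at ha; omega
  have hd2 : q g₂ ≠ 1 := fun e1 => hd1 (by
    rw [hg2def, map_mul, map_mul, map_inv] at e1
    rwa [conj_eq_one_iff] at e1)
  have hd3 : q (g * g₂) ≠ 1 := fun e1 => by
    have hc : Commute (q y) (q g) := by
      rw [map_mul, hg2def, map_mul, map_mul, map_inv] at e1
      have e2 : q y * q g * (q y)⁻¹ = (q g)⁻¹ := eq_inv_of_mul_eq_one_right e1
      rw [← map_inv q g, inv_eq_of_mul_eq_one_right hg] at e2
      exact mul_inv_eq_iff_eq_mul.1 e2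
    change Commute (y : G ⧸ N) (g : G ⧸ N) at hc
    have h6 : orderOf ((g : G ⧸ N) * y) = 2 * 3 := by
      rw [Commute.orderOf_mul_eq_mul_orderOf_of_coprime hc.symm (by rw [hga, ha, hy]; decide), hga, ha, hy]
    have h36 : orderOf ((g : G ⧸ N) * y) ∣ 3 := orderOf_dvd_of_pow_eq_one (by rw [hga]; exact hay)
    rw [h6] at h36
    omega
  have hdisj : K ⊓ N = ⊥ := by
    refine eq_bot_iff.2 fun x hx => mem_bot.2 ?_
    have hx1 : q x = 1 := (QuotientGroup.eq_one_iff x).2 hx.2
    rcases hmemK x hx.1 with rfl | rfl | rfl | rfl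
    · rfl
    · exact absurd hx1 hd1
    · exact absurd hx1 hd2
    · exact absurd hx1 hd3
  have hcardK : Nat.card K = 4 := by
    have hgK : g ∈ K := subset_closure (by simp)
    have hg2K : g₂ ∈ K := subset_closure (by simp)
    have he : (K : Set G) = {1, g, g₂, g * g₂} := by
      ext x
      refine ⟨fun hx => hmemK x hx, ?_⟩
      rintro (rfl | rfl | rfl | rfl)
      · exact one_mem K
      · exact hgK
      · exact hg2K
      · exact mul_mem hgK hg2K
    have hne1 : g ≠ 1 := fun e1 => hd1 (by rw [e1, map_one])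
    have hne2 : g₂ ≠ 1 := fun e1 => hd2 (by rw [e1, map_one])
    have hne3 : g * g₂ ≠ 1 := fun e1 => hd3 (by rw [e1, map_one])
    have hne12 : g ≠ g₂ := fun e1 => hne3 (e1 ▸ hg)
    show Nat.card (K : Set G) = 4
    rw [he, Nat.card_coe_set_eq, Set.ncard_insert_of_notMem (by simp [hne1.symm, hne2.symm, hne3.symm]),
      Set.ncard_insert_of_notMem (by simp [hne12, hne2]),
      Set.ncard_insert_of_notMem (by simp [hne1]), Set.ncard_singleton]
  have hG : Nat.card G = 60 * Nat.card N := by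
    rw [Subgroup.card_eq_card_quotient_mul_card_subgroup N, Nat.card_congr e.toEquiv,
      SmallSpectrum.card_alternatingGroup_five]
  have hKN : Nat.card ↥(K ⊔ N) = 4 * Nat.card N := by
    rw [← Nat.card_eq_of_bijective (fun x : K × N => (⟨(x.1 : G) * x.2,
      mul_mem (mem_sup_left x.1.2) (mem_sup_right x.2.2)⟩ : ↥(K ⊔ N))) ⟨?_, ?_⟩, Nat.card_prod, hcardK]
    · rintro ⟨a, b⟩ ⟨c, d⟩ hab
      have e1 : (a : G) * b = c * d := congrArg Subtype.val hab
      have e2 : (c : G)⁻¹ * a = d * (b : G)⁻¹ := by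
        rw [eq_mul_inv_iff_mul_eq, mul_assoc, e1, inv_mul_cancel_left]
      have h1 : (c : G)⁻¹ * a ∈ K ⊓ N :=
        ⟨K.mul_mem (K.inv_mem c.2) a.2, e2 ▸ N.mul_mem d.2 (N.inv_mem b.2)⟩
      rw [hdisj, mem_bot] at h1
      have hac : (a : G) = c := (inv_mul_eq_one.1 h1).symm
      exact Prod.ext (Subtype.ext hac) (Subtype.ext (mul_left_cancel (a := (c : G)) (by rw [← e1, hac])))
    · rintro ⟨x, hx⟩
      obtain ⟨k, hk, n, hn, rfl⟩ := mem_sup_of_normal_right.1 hx
      exact ⟨(⟨k, hk⟩, ⟨n, hn⟩), rfl⟩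
  refine NormalComplements.exists_isComplement'_of_coprime_index N (K ⊔ N) K
    ⟨⟨fun a b => Subtype.ext (SmallSpectrum.commute_of_sq_eq_one hsq a.2 b.2)⟩⟩
    le_sup_right le_sup_left hdisj le_rfl ?_
  have hidx : (K ⊔ N).index = 15 := by
    have h1 := Subgroup.index_mul_card (K ⊔ N)
    rw [hKN, hG] at h1
    have hpos : 0 < Nat.card N := Nat.card_pos
    refine Nat.eq_of_mul_eq_mul_right (Nat.mul_pos (by norm_num : 0 < 4) hpos) (h1.trans ?_)
    ring
  obtain ⟨k, hk⟩ := IsPGroup.iff_card.1 (isPGroup_two N hsq)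
  rw [hidx, hk]
  exact Nat.Coprime.pow_left _ (by decide)

end CfsgLib.CriticalSpectrum
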